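import Mathlib.AlgebraicGeometry.AffineSpace
import Mathlib.AlgebraicGeometry.Morphisms.Finite
import Mathlib.AlgebraicGeometry.Morphisms.QuasiFinite
import Mathlib.AlgebraicGeometry.ZariskisMainTheorem
import Mathlib.AlgebraicGeometry.Fiber
import Mathlib.Topology.KrullDimension
import Mathlib.RingTheory.KrullDimension.NonZeroDivisors
import Mathlib.RingTheory.KrullDimension.Field
import Mathlib.RingTheory.KrullDimension.Polynomial

/-!
# Finite morphisms to affine space in the top dimension are surjective;
# finiteness on a fibre implies quasi-finiteness near the fibre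
-/

set_option autoImplicit false
universe u

open AlgebraicGeometry TopologicalSpace CategoryTheory.Limits
open CategoryTheory hiding IsDiscrete

namespace Groth.Agent.Ega4fib.H116.FinSurj

theorem ringKrullDim_le_of_integral (R S : Type*) [CommRing R] [CommRing S] [Algebra R S]
    [Algebra.IsIntegral R S] : ringKrullDim S ≤ ringKrullDim R := by
  refine Order.krullDim_le_of_strictMono (PrimeSpectrum.comap (algebraMap R S)) ?_
  intro p q hpq
  have : p.asIdeal < q.asIdeal := hpq
  exact Ideal.IsIntegral.comap_lt_comap this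

/-- An integral algebra `B` over a domain `R` with `dim B = dim R` finite is
surjective on spectra. -/
theorem comap_surjective_of_dim {R B : Type*} [CommRing R] [IsDomain R] [CommRing B]
    [Algebra R B] [Algebra.IsIntegral R B] (e : ℕ) (hR : ringKrullDim R = e)
    (hB : ringKrullDim B = e) :
    Function.Surjective (PrimeSpectrum.comap (algebraMap R B)) := by
  have hinj : Function.Injective (algebraMap R B) := by
    rw [injective_iff_map_eq_zero]
    intro r hr
    by_contra hne
    have h1 := ringKrullDim_quotient_succ_le_of_nonZeroDivisor (r := r)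
      (mem_nonZeroDivisors_of_ne_zero hne)
    let I : Ideal R := Ideal.span {r}
    have hI : ∀ a ∈ I, algebraMap R B a = 0 := by
      intro a ha
      obtain ⟨c, rfl⟩ := Ideal.mem_span_singleton'.1 ha
      rw [map_mul, hr, mul_zero]
    let _ : Algebra (R ⧸ I) B := (Ideal.Quotient.lift I (algebraMap R B) hI).toAlgebra
    have : IsScalarTower R (R ⧸ I) B := IsScalarTower.of_algebraMap_eq (fun x => rfl)
    have : Algebra.IsIntegral (R ⧸ I) B := Algebra.IsIntegral.tower_top R
    have h2 := ringKrullDim_le_of_integral (R ⧸ I) B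
    rw [hB] at h2
    rw [hR] at h1
    have h3 : ((e : WithBot ℕ∞)) + 1 ≤ e := (add_le_add_left h2 1).trans h1
    have h4 : e + 1 ≤ e := by exact_mod_cast h3
    omega
  have : FaithfulSMul R B := (faithfulSMul_iff_algebraMap_injective R B).mpr hinj
  exact Algebra.IsIntegral.comap_surjective R B

theorem ringKrullDim_mvPolynomial (k : Type u) [Field k] (e : ℕ) :
    ringKrullDim (MvPolynomial (ULift.{u} (Fin e)) k) = e := by
  rw [MvPolynomial.ringKrullDim_of_isNoetherianRing, ringKrullDim_eq_zero_of_field, zero_add]
  simp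

theorem topologicalKrullDim_iso {X Y : Scheme.{u}} (i : X ≅ Y) :
    topologicalKrullDim X = topologicalKrullDim Y :=
  IsHomeomorph.topologicalKrullDim_eq _ (Scheme.homeoOfIso i).isHomeomorph

/-- A finite morphism `P ⟶ Spec R` with `R` a domain of finite dimension equal to `dim P` is
surjective. -/
theorem surjective_of_isFinite_of_dim {P F : Scheme.{u}} (p : P ⟶ F) [IsFinite p] (R : Type u)
    [CommRing R] [IsDomain R] (i : F ≅ Spec (.of R)) (e : ℕ) (hR : ringKrullDim R = e)
    (hP : topologicalKrullDim P = e) : Function.Surjective p := by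
  have : IsAffine F := .of_isIso i.hom
  have : IsAffine P := isAffine_of_isAffineHom p
  let φ : CommRingCat.of R ⟶ Γ(P, ⊤) := Spec.preimage ((Scheme.isoSpec P).inv ≫ p ≫ i.hom)
  have hφ : Spec.map φ = (Scheme.isoSpec P).inv ≫ p ≫ i.hom := Spec.map_preimage _
  have hfin : IsFinite (Spec.map φ) := by rw [hφ]; infer_instance
  rw [IsFinite.SpecMap_iff] at hfin
  algebraize [φ.hom]
  have hB : ringKrullDim Γ(P, ⊤) = e := by
    rw [← PrimeSpectrum.topologicalKrullDim_eq_ringKrullDim, ← hP]
    exact (topologicalKrullDim_iso (Scheme.isoSpec P)).symm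
  have h := comap_surjective_of_dim (R := R) (B := Γ(P, ⊤)) e hR hB
  have h' : Function.Surjective (Spec.map φ) := h
  rw [hφ] at h'
  intro x
  obtain ⟨z, hz⟩ := h' (i.hom x)
  refine ⟨(Scheme.isoSpec P).inv z, ?_⟩
  apply (Scheme.homeoOfIso i).injective
  simpa using hz

/-- If the base change of `g : X ⟶ A` to the fibre of `π : A ⟶ Y` over `y` is locally
quasi-finite, then `g` is quasi-finite at all points of `X` over `y`. -/
theorem quasiFiniteAt_of_fiber {X A Y : Scheme.{u}} (g : X ⟶ A) (π : A ⟶ Y) (y : Y)
    [LocallyOfFiniteType g] [LocallyQuasiFinite (pullback.snd g (π.fiberι y))] (x : X)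
    (hx : π (g x) = y) : g.QuasiFiniteAt x := by
  rw [Scheme.Hom.quasiFiniteAt_iff_isOpen_singleton_asFiber]
  have hd : IsDiscrete (g ⁻¹' {g x}) := by
    obtain ⟨b, hb⟩ : g x ∈ Set.range (π.fiberι y) := by
      rw [π.range_fiberι]; exact hx
    have h1 := (pullback.snd g (π.fiberι y)).isDiscrete_preimage_singleton b
    have h2 := h1.image (pullback.fst g (π.fiberι y)).isEmbedding.toIsInducing
    refine h2.mono ?_
    intro x' hx'
    obtain ⟨z, hz1, hz2⟩ := Scheme.Pullback.exists_preimage_pullback (f := g)
      (g := π.fiberι y) x' b (hx'.trans hb.symm)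
    exact ⟨z, hz2, hz1⟩
  have : DiscreteTopology (g.fiber (g x)) := by
    have := hd.to_subtype
    exact (g.fiberHomeo (g x)).isEmbedding.discreteTopology
  exact isOpen_discrete _

end Groth.Agent.Ega4fib.H116.FinSurj
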